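import Cfsg.Agent.Lib.Helper58.G2Syl.Defs

set_option autoImplicit false

namespace Cfsg.Agent.Lib.Helper65.G2Syl

open Cfsg Cfsg.Lie Cfsg.Agent.Lib.Helper58.WrSyl Cfsg.Agent.Lib.Helper58.G2Syl
open scoped MatrixGroups
open Matrix.GeneralLinearGroup (scalar det)

theorem omFun_omFun {F : Type*} [Field F] (x : Fin 8 → F) :
    omFun (omFun x) = x := by
  funext i
  fin_cases i <;> simp [omFun]

set_option maxHeartbeats 1600000 in
theorem omFun_zornMul {F : Type*} [Field F] (x y : Fin 8 → F) :
    omFun (zornMul x y) = zornMul (omFun x) (omFun y) := by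
  funext i
  fin_cases i <;> simp [omFun, zornMul, dot3, cross3, zA, zB] <;> ring

/-- [A2] -/
theorem exists_om (F : Type*) [Field F] : ∃ f ∈ AutO F, ∀ x, f x = omFun x := by
  refine ⟨{ toFun := omFun
            invFun := omFun
            map_add' := ?_
            map_smul' := ?_
            left_inv := omFun_omFun
            right_inv := omFun_omFun }, ?_, ?_⟩
  · intro x y
    funext i
    fin_cases i <;> simp [omFun] <;> ring
  · intro r x
    funext i
    fin_cases i <;> simp [omFun]
  · rw [mem_AutO]
    intro x y
    exact omFun_zornMul x y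
  · intro x
    rfl

end Cfsg.Agent.Lib.Helper65.G2Syl
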