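import Cfsg.Agent.Lib.Helper65.G2Syl.A1
import Cfsg.Agent.Lib.Helper65.G2Syl.A2

set_option autoImplicit false

namespace Cfsg.Agent.Lib.Helper65.G2Syl

open Cfsg Cfsg.Lie Cfsg.Agent.Lib.Helper58.WrSyl Cfsg.Agent.Lib.Helper58.G2Syl
open scoped MatrixGroups
open Matrix.GeneralLinearGroup (scalar det)

theorem autO_trans_formula {F : Type*} [Field F] (x : Fin 8 → F) (hx : x ∈ Idem F) (h0 : x 0 ≠ 0) :
    omFun (tauFun ![x 4 / x 0, x 5 / x 0, x 6 / x 0]
      (omFun (tauFun ![x 1, x 2, x 3] (e1 F)))) = x := by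
  obtain ⟨h1, h2⟩ := hx
  have h7 : x 7 = 1 - x 0 := by linear_combination h1
  funext i
  fin_cases i
  · simp [omFun, tauFun, e1]
    field_simp
    linear_combination h2 - x 0 * h1
  · simp [omFun, tauFun, e1]
  · simp [omFun, tauFun, e1]
  · simp [omFun, tauFun, e1]
  · simp [omFun, tauFun, e1]
    field_simp
    linear_combination x 4 * h2 - x 4 * x 0 * h1
  · simp [omFun, tauFun, e1]
    field_simp
    linear_combination x 5 * h2 - x 5 * x 0 * h1
  · simp [omFun, tauFun, e1]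
    field_simp
    linear_combination x 6 * h2 - x 6 * x 0 * h1
  · simp [omFun, tauFun, e1]
    field_simp
    linear_combination (-1 : F) * h2

theorem autO_trans_aux {F : Type*} [Field F] (x : Fin 8 → F) (hx : x ∈ Idem F) (h0 : x 0 ≠ 0) :
    ∃ f ∈ AutO F, f (e1 F) = x := by
  obtain ⟨w, hw, hwf⟩ := exists_om F
  obtain ⟨ta, hta, htaf⟩ := exists_tau (F := F) ![x 1, x 2, x 3]
  obtain ⟨td, htd, htdf⟩ := exists_tau (F := F) ![x 4 / x 0, x 5 / x 0, x 6 / x 0]
  refine ⟨w * td * w * ta, (AutO F).mul_mem ((AutO F).mul_mem ((AutO F).mul_mem hw htd) hw) hta, ?_⟩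
  change w (td (w (ta (e1 F)))) = x
  rw [htaf, hwf, htdf, hwf]
  exact autO_trans_formula x hx h0

/-- [A3] -/
theorem autO_trans {F : Type*} [Field F] (x : Fin 8 → F) (hx : x ∈ Idem F) :
    ∃ f ∈ AutO F, f (e1 F) = x := by
  by_cases h0 : x 0 = 0
  · obtain ⟨w, hw, hwf⟩ := exists_om F
    have hy : omFun x ∈ Idem F := by
      obtain ⟨h1, h2⟩ := hx
      refine ⟨?_, ?_⟩
      · simp [omFun]
        linear_combination h1
      · simp [omFun]
        linear_combination h2
    have hy0 : (omFun x) 0 ≠ 0 := by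
      have h1 := hx.1
      rw [h0, zero_add] at h1
      simp [omFun, h1]
    obtain ⟨f, hf, hfe⟩ := autO_trans_aux (omFun x) hy hy0
    refine ⟨w * f, (AutO F).mul_mem hw hf, ?_⟩
    change w (f (e1 F)) = x
    rw [hfe, hwf, omFun_omFun]
  · exact autO_trans_aux x hx h0

end Cfsg.Agent.Lib.Helper65.G2Syl
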