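import Cfsg.Agent.Lib.Helper58.G2Syl.Defs

set_option autoImplicit false

namespace Cfsg.Agent.Lib.Helper65.G2Syl

open Cfsg Cfsg.Lie Cfsg.Agent.Lib.Helper58.WrSyl Cfsg.Agent.Lib.Helper58.G2Syl
open scoped MatrixGroups
open Matrix.GeneralLinearGroup (scalar det)

theorem tauFun_neg_tauFun {F : Type*} [Field F] (c : Fin 3 → F) (x : Fin 8 → F) :
    tauFun (-c) (tauFun c x) = x := by
  funext i
  fin_cases i <;> simp [tauFun] <;> ring

set_option maxHeartbeats 1600000 in
theorem tauFun_zornMul {F : Type*} [Field F] (c : Fin 3 → F) (x y : Fin 8 → F) :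
    tauFun c (zornMul x y) = zornMul (tauFun c x) (tauFun c y) := by
  funext i
  fin_cases i <;> simp [tauFun, zornMul, dot3, cross3, zA, zB] <;> ring

/-- [A1] -/
theorem exists_tau {F : Type*} [Field F] (c : Fin 3 → F) :
    ∃ f ∈ AutO F, ∀ x, f x = tauFun c x := by
  refine ⟨{ toFun := tauFun c
            invFun := tauFun (-c)
            map_add' := ?_
            map_smul' := ?_
            left_inv := ?_
            right_inv := ?_ }, ?_, ?_⟩
  · intro x y
    funext i
    fin_cases i <;> simp [tauFun] <;> ring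
  · intro r x
    funext i
    fin_cases i <;> simp [tauFun] <;> ring
  · intro x
    exact tauFun_neg_tauFun c x
  · intro x
    have := tauFun_neg_tauFun (-c) x
    rwa [neg_neg] at this
  · rw [mem_AutO]
    intro x y
    exact tauFun_zornMul c x y
  · intro x
    rfl

end Cfsg.Agent.Lib.Helper65.G2Syl
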